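import Mathlib
import Cfsg.Agent.Base
import Cfsg.Agent.Lib.FrobC.Local
import Cfsg.Agent.Lib.Zsig.Basic
import Cfsg.Agent.Lib.ZStar.UniqueInvol

/-!
Transitive automorphism groups of a `p`-group and sums of two squares (helper35).
-/

set_option autoImplicit false

namespace H35K

open Subgroup

theorem sum_sq_cancel {n k a b : ℕ} (hk : k ≠ 0) (h : n * k = a ^ 2 + b ^ 2)
    (he : ∀ r : ℕ, r.Prime → r % 4 = 3 → Even (padicValNat r k)) :
    ∃ x y : ℕ, n = x ^ 2 + y ^ 2 := by
  rw [Nat.eq_sq_add_sq_iff]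
  intro r hr h4
  have hp := Nat.prime_of_mem_primeFactors hr
  have hn : n ≠ 0 := (Nat.mem_primeFactors.1 hr).2.2
  haveI := Fact.mk hp
  have h1 := Nat.eq_sq_add_sq_iff.1 ⟨a, b, h⟩ r (Nat.mem_primeFactors.2
    ⟨hp, (Nat.dvd_of_mem_primeFactors hr).mul_right _, mul_ne_zero hn hk⟩) h4
  rw [padicValNat.mul hn hk] at h1
  exact (Nat.even_add.1 h1).2 (he r hp h4)

theorem not_sum_sq {m j u a b : ℕ} (hm : m % 4 = 3) (hu : u ≠ 0)
    (h : 2 ^ j * m * u ^ 2 = a ^ 2 + b ^ 2) : False := by
  obtain ⟨x, y, hxy⟩ := sum_sq_cancel (n := m) (k := 2 ^ j * u ^ 2) (a := a) (b := b)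
    (by positivity) (by rw [← h]; ring) fun r hr h4 => by
      haveI := Fact.mk hr
      rw [padicValNat.mul (by positivity) (by positivity), padicValNat.pow u 2,
        padicValNat.eq_zero_of_not_dvd (n := 2 ^ j) (fun hd => by
          have := (Nat.prime_dvd_prime_iff_eq hr Nat.prime_two).1 (hr.dvd_of_dvd_pow hd)
          omega)]
      simp
  have h1 : x % 4 = 0 ∨ x % 4 = 1 ∨ x % 4 = 2 ∨ x % 4 = 3 := by omega
  have h2 : y % 4 = 0 ∨ y % 4 = 1 ∨ y % 4 = 2 ∨ y % 4 = 3 := by omega
  have h3 : (x ^ 2 + y ^ 2) % 4 = 3 := hxy ▸ hm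
  rcases h1 with h1 | h1 | h1 | h1 <;> rcases h2 with h2 | h2 | h2 | h2 <;>
    simp [Nat.add_mod, Nat.pow_mod, h1, h2] at h3

theorem two_pow_sub_one_mod {m : ℕ} (hm : 2 ≤ m) : (2 ^ m - 1) % 4 = 3 := by
  obtain ⟨k, rfl⟩ := Nat.exists_eq_add_of_le hm
  have : 0 < 2 ^ k := by positivity
  rw [pow_add]; omega

theorem sq_of_mul_sq {s k d : ℕ} (hk : k ≠ 0) (h : d ^ 2 = s * k ^ 2) : ∃ u, s = u ^ 2 := by
  have h1 : k ^ 2 ∣ d ^ 2 := ⟨s, by rw [h]; ring⟩
  obtain ⟨u, rfl⟩ := (Nat.pow_dvd_pow_iff two_ne_zero).1 h1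
  refine ⟨u, Nat.eq_of_mul_eq_mul_left (show 0 < k ^ 2 by positivity) ?_⟩
  rw [mul_comm _ s, ← h]; ring

variable {E V : Type*} [Group E] [Finite E] [Group V] [Finite V]

/-- The fixed points of an automorphism. -/
theorem card_fix_modEq (φ : E →* MulAut V) {r : ℕ} [Fact r.Prime] {a : E} {k : ℕ}
    (ha : a ^ r ^ k = 1) :
    Nat.card V ≡ Nat.card ((φ a).toMonoidHom.eqLocus (MonoidHom.id V)) [MOD r] := by
  letI : MulAction E V := MulAction.compHom V φ
  have hP : IsPGroup r (zpowers a) := by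
    rintro ⟨_, i, rfl⟩
    refine ⟨k, Subtype.ext ?_⟩
    show (a ^ i) ^ r ^ k = 1
    rw [← zpow_natCast, ← zpow_mul, mul_comm, zpow_mul, zpow_natCast, ha, one_zpow]
  have h := hP.card_modEq_card_fixedPoints V
  suffices h0 : Nat.card (MulAction.fixedPoints (zpowers a) V) =
      Nat.card ((φ a).toMonoidHom.eqLocus (MonoidHom.id V)) by rwa [h0] at h
  refine Nat.card_congr (Equiv.subtypeEquivRight fun x => ?_)
  constructor
  · intro hx
    exact hx ⟨a, mem_zpowers a⟩
  · rintro hx ⟨_, i, rfl⟩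
    have h1 : a ∈ MulAction.stabilizer E x := hx
    exact (MulAction.stabilizer E x).zpow_mem h1 i

theorem card_eq_three {p : ℕ} [hp : Fact p.Prime] (hV : IsPGroup p V) [Nontrivial V]
    (φ : E →* MulAut V) (hφ : Function.Injective φ)
    (htr : ∀ u v : V, u ≠ 1 → v ≠ 1 → ∃ e, φ e u = v) {d1 d2 d3 t : ℕ} (ht : 0 < t)
    (h1 : 0 < d1) (h2 : 0 < d2) (h12 : d1 ^ 2 + d2 ^ 2 = Nat.card E * t ^ 2)
    (h3 : d3 ^ 2 = (Nat.card V - 1) * Nat.card E * t ^ 2)
    (hodd : ∀ r : ℕ, r.Prime → r ≠ 2 → r ∣ Nat.card E → ∀ P : Subgroup E, ¬ r ∣ P.index →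
      ¬ IsCyclic P)
    (hq : (IsCyclic E ∨ ∃ n : ℕ, Nonempty (E ≃* QuaternionGroup (2 ^ (n + 1)))) →
      d1 = t ∨ d2 = t) : Nat.card V = 3 := by
  classical
  letI : MulAction E V := MulAction.compHom V φ
  have hsm : ∀ (e : E) (x : V), e • x = φ e x := fun _ _ => rfl
  obtain ⟨n, hn⟩ := hV.exists_card_eq
  have hq1 : 1 < Nat.card V := Finite.one_lt_card
  -- orbit-stabiliser
  have hos : ∀ v : V, v ≠ 1 →
      Nat.card E = (Nat.card V - 1) * Nat.card (MulAction.stabilizer E v) := by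
    intro v hv
    have ho : MulAction.orbit E v = {1}ᶜ := by
      ext w
      constructor
      · rintro ⟨e, rfl⟩ h
        exact hv ((EmbeddingLike.map_eq_one_iff (f := φ e)).1 h)
      · intro hw
        exact htr v w hv hw
    rw [← (MulAction.stabilizer E v).index_mul_card, MulAction.index_stabilizer, ho,
      Set.ncard_compl _ (Set.toFinite _) (Set.toFinite _), Set.ncard_singleton]
  have hsq : ∀ v : V, v ≠ 1 → ∃ u, Nat.card (MulAction.stabilizer E v) = u ^ 2 := by
    intro v hv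
    refine sq_of_mul_sq (k := (Nat.card V - 1) * t) (d := d3)
      (mul_ne_zero (by omega) ht.ne') ?_
    rw [h3, hos v hv]; ring
  -- a fixed-point-free subgroup of odd prime power order is cyclic
  have hcyc : ∀ (r : ℕ) [Fact r.Prime], r ≠ 2 → ∀ P : Sylow r E,
      H82.FPF (φ.comp (P : Subgroup E).subtype) → IsCyclic P := by
    intro r _ hr P hP
    have h := hP.intFPF.isCyclic_of_odd hr (P := ⊤) (P.2.to_subgroup ⊤)
    exact (MulEquiv.isCyclic Subgroup.topEquiv).1 h
  -- the regular case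
  have hreg : (∀ v : V, v ≠ 1 → Nat.card (MulAction.stabilizer E v) = 1) → Nat.card V = 3 := by
    intro hs
    have hF : H82.FPF φ := by
      intro a ha k hk
      by_contra hk1
      have h0 : MulAction.stabilizer E k = ⊥ := Subgroup.card_eq_one.1 (hs k hk1)
      exact ha (by rw [← Subgroup.mem_bot, ← h0]; exact hk)
    obtain ⟨v, hv⟩ := exists_ne (1 : V)
    have hE := hos v hv
    rw [hs v hv, mul_one] at hE
    have hE2 : IsPGroup 2 E := by
      have h0 : Nat.card E = 2 ^ (Nat.card E).primeFactorsList.length := by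
        refine Nat.eq_prime_pow_of_unique_prime_dvd Nat.card_pos.ne' fun {r} hr hd => ?_
        by_contra h2
        haveI := Fact.mk hr
        let P : Sylow r E := default
        exact hodd r hr h2 hd P P.not_dvd_index
          (hcyc r h2 P (hF.comp _ (P : Subgroup E).subtype_injective))
      exact IsPGroup.of_card h0
    have hU : H41.UniqInv E := fun a b ha hb ha1 hb1 =>
      hF.intFPF.invol_unique (orderOf_eq_prime (by rw [pow_two, ha]) ha1)
        (orderOf_eq_prime (by rw [pow_two, hb]) hb1)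
    obtain ⟨m, hm⟩ := hE2.exists_card_eq
    have key : ∀ d : ℕ, 0 < d → t ^ 2 + d ^ 2 = 2 ^ m * t ^ 2 → m = 1 := by
      intro d hd h
      have hpos : 0 < 2 ^ m := by positivity
      have h4 : d ^ 2 = (2 ^ m - 1) * t ^ 2 := by
        obtain ⟨c, hc⟩ : ∃ c, 2 ^ m = c + 1 := ⟨2 ^ m - 1, by omega⟩
        rw [hc] at h ⊢
        simp only [Nat.add_sub_cancel]
        nlinarith
      by_contra hm1
      rcases Nat.eq_zero_or_pos m with rfl | hm0
      · simp at h4; omega
      · exact not_sum_sq (j := 0) (u := t) (a := d) (b := 0)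
          (two_pow_sub_one_mod (show 2 ≤ m by omega)) ht.ne' (by rw [h4]; ring)
    have hm1 : m = 1 := by
      rw [hm] at h12
      rcases hq (hU.cyclic_or_quaternion hE2) with h | h
      · exact key d2 h2 (by rw [← h12, h])
      · exact key d1 h1 (by rw [← h12, h, add_comm])
    rw [hm, hm1] at hE
    omega
  -- the fixed points of a non-identity element form a proper subgroup
  have hfix : ∀ a : E, (φ a).toMonoidHom.eqLocus (MonoidHom.id V) = ⊤ → a = 1 := by
    intro a ha
    refine hφ ?_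
    rw [map_one]
    ext x
    have : x ∈ (φ a).toMonoidHom.eqLocus (MonoidHom.id V) := ha ▸ mem_top x
    exact this
  have hsum : ∀ j m : ℕ, m % 4 = 3 → Nat.card V - 1 = 2 ^ j * m → False := by
    intro j m hm h
    obtain ⟨v, hv⟩ := exists_ne (1 : V)
    obtain ⟨u, hu⟩ := hsq v hv
    have hu0 : u ≠ 0 := by
      rintro rfl
      exact (Nat.card_pos (α := MulAction.stabilizer E v)).ne' (hu.trans (by norm_num))
    refine not_sum_sq (j := j) (u := u * t) (a := d1) (b := d2) hm (mul_ne_zero hu0 ht.ne') ?_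
    rw [h12, hos v hv, hu, h]; ring
  by_cases hn1 : n ≤ 1
  · have hn1 : n = 1 := by
      rcases Nat.eq_zero_or_pos n with rfl | h
      · simp at hn; omega
      · omega
    rw [hn1, pow_one] at hn
    refine hreg fun v hv => Subgroup.card_eq_one.2 (eq_bot_iff.2 fun a ha => hfix a ?_)
    haveI : Fact (Nat.card V).Prime := ⟨hn ▸ hp.out⟩
    rcases ((φ a).toMonoidHom.eqLocus (MonoidHom.id V)).eq_bot_or_eq_top_of_prime_card with h | h
    · exact absurd (show v ∈ (⊥ : Subgroup V) from h ▸ ha) hv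
    · exact h
  by_cases hp2 : p = 2
  · exact (hsum 0 (2 ^ n - 1) (two_pow_sub_one_mod (by omega)) (by rw [hn, hp2]; simp)).elim
  by_cases hex : n = 2 ∧ ∃ m : ℕ, p + 1 = 2 ^ m
  · obtain ⟨rfl, m, hm⟩ := hex
    have hp1 := hp.out.two_le
    have hm2 : 2 ≤ m := by
      by_contra h
      have : m = 0 ∨ m = 1 := by omega
      rcases this with rfl | rfl <;> omega
    by_cases hm3 : 3 ≤ m
    · obtain ⟨k, rfl⟩ : ∃ k, m = k + 1 := ⟨m - 1, by omega⟩
      refine (hsum (k + 2) (2 ^ k - 1) (two_pow_sub_one_mod (by omega)) ?_).elim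
      have hk : 0 < 2 ^ k := by positivity
      obtain ⟨c, hc⟩ : ∃ c, 2 ^ k = c + 1 := ⟨2 ^ k - 1, by omega⟩
      have : p = 2 * c + 1 := by rw [pow_succ, hc] at hm; omega
      rw [hn, pow_add, hc, this]
      simp only [Nat.add_sub_cancel]
      apply Nat.sub_eq_of_eq_add; ring
    · have hp3 : p = 3 := by
        have : m = 2 := by omega
        rw [this] at hm; omega
      subst hp3
      refine hreg fun v hv => ?_
      obtain ⟨u, hu⟩ := hsq v hv
      have hsub : ∀ W : Subgroup V, W ≠ ⊥ → W ≠ ⊤ → Nat.card W = 3 := by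
        intro W hW1 hW2
        obtain ⟨i, hi, hW⟩ := (Nat.dvd_prime_pow hp.out).1 (hn ▸ W.card_subgroup_dvd_card)
        have : i = 0 ∨ i = 1 ∨ i = 2 := by omega
        rcases this with rfl | rfl | rfl
        · exact absurd (Subgroup.card_eq_one.1 hW) hW1
        · simpa using hW
        · exact absurd ((Subgroup.card_eq_iff_eq_top W).1 (hW.trans hn.symm)) hW2
      have hz : zpowers v ≠ ⊥ := by simpa using hv
      have hle : ∀ a ∈ MulAction.stabilizer E v,
          zpowers v ≤ (φ a).toMonoidHom.eqLocus (MonoidHom.id V) := fun a ha =>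
        zpowers_le.2 ha
      by_cases hzt : zpowers v = ⊤
      · exact Subgroup.card_eq_one.2 (eq_bot_iff.2 fun a ha =>
          hfix a (eq_top_iff.2 (hzt ▸ hle a ha)))
      let act : MulAction (MulAction.stabilizer E v) {w : V // w ∉ zpowers v} :=
        { smul := fun a w => ⟨φ a w, fun h => w.2 (by
            have h1 : φ a (φ a w) = φ a w := hle a a.2 h
            rwa [← (φ a).injective h1])⟩
          one_smul := fun w => Subtype.ext (by show φ 1 w = w; simp)
          mul_smul := fun a b w => Subtype.ext (by show φ (a * b) w = φ a (φ b w); simp) }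
      have hd := H2.card_dvd_of_free (A := MulAction.stabilizer E v)
        (X := {w : V // w ∉ zpowers v}) fun a w h => by
          refine Subtype.ext (hfix a ?_)
          by_contra hne
          have hb : (φ a).toMonoidHom.eqLocus (MonoidHom.id V) ≠ ⊥ := fun hb =>
            hz (eq_bot_iff.2 (hb ▸ hle a a.2))
          have he := Subgroup.eq_of_le_of_card_ge (hle a a.2)
            (by rw [hsub _ hb hne, hsub _ hz hzt])
          have hw : (w : V) ∈ (φ a).toMonoidHom.eqLocus (MonoidHom.id V) :=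
            (congrArg Subtype.val h : φ a w = w)
          exact w.2 (he.ge hw)
      have hc : Nat.card {w : V // w ∉ zpowers v} = 6 := by
        have h0 : Nat.card {w : V // w ∉ zpowers v} = ((zpowers v : Set V)ᶜ).ncard := rfl
        rw [h0, Set.ncard_compl _ (Set.toFinite _) (Set.toFinite _), hn]
        have := hsub _ hz hzt
        rw [show (zpowers v : Set V).ncard = 3 from this]
        norm_num
      rw [hc, hu] at hd
      have hu6 := Nat.le_of_dvd (by norm_num) hd
      have hu3 : u < 3 := by nlinarith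
      rw [hu]
      interval_cases u <;> simp_all
  obtain ⟨r, hr, hrn, hrk⟩ := H69.Zsig.zsigmondy (a := p) (n := n) hp.out.one_lt (by omega)
    (fun h => hp2 h.1) hex
  haveI := Fact.mk hr
  have hr2 : r ≠ 2 := by
    rintro rfl
    refine hrk 1 one_pos (by omega) ?_
    rcases hp.out.eq_two_or_odd with h | h
    · exact absurd h hp2
    · rw [pow_one]; omega
  obtain ⟨v, hv⟩ := exists_ne (1 : V)
  let P : Sylow r E := default
  refine (hodd r hr hr2 (by rw [hos v hv, hn]; exact hrn.mul_right _) P P.not_dvd_index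
    (hcyc r hr2 P fun a ha k hk => ?_)).elim
  obtain ⟨j, hj⟩ := P.2 a
  have hm := card_fix_modEq φ (a := (a : E)) (k := j) (r := r) (congrArg Subtype.val hj)
  set F := (φ (a : E)).toMonoidHom.eqLocus (MonoidHom.id V) with hF
  obtain ⟨i, hi, hW⟩ := (Nat.dvd_prime_pow hp.out).1 (hn ▸ F.card_subgroup_dvd_card)
  have hin : i ≠ n := fun h => ha (Subtype.ext (hfix a
    ((Subgroup.card_eq_iff_eq_top F).1 (by rw [hW, h, hn]))))
  have hi0 : i = 0 := by
    by_contra hi0
    refine hrk i (by omega) (by omega) ?_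
    rw [hn, hW] at hm
    have e1 : 1 ≡ p ^ n [MOD r] := (Nat.modEq_iff_dvd' (Nat.one_le_pow _ _ hp.out.pos)).2 hrn
    exact (Nat.modEq_iff_dvd' (Nat.one_le_pow _ _ hp.out.pos)).1 (e1.trans hm)
  rw [hi0, pow_zero] at hW
  have : k ∈ F := hk
  rwa [Subgroup.card_eq_one.1 hW] at this

end H35K
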