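import Mathlib
import Cfsg.Agent.Base
import Cfsg.Agent.Lib.Block.Fong
import Cfsg.Agent.Lib.Block.Apps
import Cfsg.Agent.Lib.Char.ExtMain
import Cfsg.Agent.Lib.Schur.Main
import Cfsg.Agent.S3963
import Cfsg.Agent.S4607

/-!
Character triples with few characters over the invariant character (helper35).
-/

set_option autoImplicit false

namespace H35K

open Cfsg H35 Subgroup
open scoped ComplexConjugate

variable {G : Type*} [Group G] [Finite G]

theorem blockCoeff_one (A : Set (IrrCharacter G)) :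
    blockCoeff A 1 = (Nat.card G : ℂ)⁻¹ *
      ((∑ χ ∈ H84.bset A, charDegree (χ : G → ℂ) ^ 2 : ℕ) : ℂ) := by
  rw [H84.blockCoeff_eq]
  congr 1
  push_cast
  refine Finset.sum_congr rfl fun χ _ => ?_
  rw [← H84.cast_deg χ, map_natCast, pow_two]

/-- The sum of the squares of the degrees over an invariant set. -/
theorem sum_sq_upSet {N : Subgroup G} [N.Normal] [Fintype N] {A : Set (IrrCharacter N)}
    (hA : ∀ g : G, ∀ θ ∈ A, cjI g θ ∈ A) :
    ∑ χ ∈ H84.bset (upSet G A), charDegree (χ : G → ℂ) ^ 2 =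
      N.index * ∑ θ ∈ H84.bset A, charDegree (θ : N → ℂ) ^ 2 := by
  have h := blockCoeff_upSet_coe hA 1
  rw [OneMemClass.coe_one, blockCoeff_one, blockCoeff_one, ← N.card_mul_index] at h
  have h1 : (Nat.card N : ℂ) ≠ 0 := by exact_mod_cast Nat.card_pos.ne'
  have h2 : (N.index : ℂ) ≠ 0 := by exact_mod_cast N.index_ne_zero_of_finite
  apply Nat.cast_injective (R := ℂ)
  rw [Nat.cast_mul N.index]
  generalize ((∑ χ ∈ H84.bset (upSet G A), charDegree (χ : G → ℂ) ^ 2 : ℕ) : ℂ) = x at h ⊢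
  generalize ((∑ θ ∈ H84.bset A, charDegree (θ : N → ℂ) ^ 2 : ℕ) : ℂ) = y at h ⊢
  push_cast at h
  field_simp at h
  rw [h]

theorem bset_singleton (χ : IrrCharacter G) : H84.bset {χ} = {χ} := by
  ext ψ; simp [H84.mem_bset]

theorem sum_sq_upSet_singleton {N : Subgroup G} [N.Normal] [Fintype N] {θ : IrrCharacter N}
    (hθ : ∀ g : G, cjI g θ = θ) :
    ∑ χ ∈ H84.bset (upSet G {θ}), charDegree (χ : G → ℂ) ^ 2 =
      N.index * charDegree (θ : N → ℂ) ^ 2 := by
  rw [sum_sq_upSet fun g ψ hψ => by rw [hψ, hθ]; rfl, bset_singleton, Finset.sum_singleton]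

/-- Over an invariant character of a normal `r'`-subgroup lie at least three characters. -/
theorem three_le_of_not_dvd {N : Subgroup G} [N.Normal] [Fintype N] {θ : IrrCharacter N}
    (hθ : ∀ g : G, cjI g θ = θ) {r : ℕ} (hr : r.Prime) (h2 : r ≠ 2) (hN : ¬ r ∣ Nat.card N)
    (hi : r ∣ N.index) : 3 ≤ Nat.card (upSet G {θ}) := by
  haveI := Fact.mk hr
  obtain ⟨M, hM⟩ := H33.exists_isPModular r
  haveI := H33.isMaximal_of hM
  by_contra hlt
  have hb := H34.isPBlock_singleton hM hN θ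
  have hdeg : ∀ χ ∈ upSet G {θ},
      (charDegree (χ : G → ℂ)).factorization r = (Nat.card G).factorization r := by
    intro χ hχ
    have hB := H84.isPBlock_blockOf (M := M) χ
    have hsub : blockOf M (χ : G → ℂ) ⊆ upSet G {θ} := by
      obtain ⟨ψ, hψ, ho⟩ := hχ
      exact Covers.subset hB hb ⟨χ, H84.mem_blockOf_self χ, ψ, hψ, ho⟩
    have hle : Nat.card (blockOf M (χ : G → ℂ)) ≤ Nat.card (upSet G {θ}) :=
      Nat.card_mono (Set.toFinite _) hsub
    obtain ⟨D, hD⟩ := H33.exists_defectGroup (p := r) hB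
    have hne : Nat.card (blockOf M (χ : G → ℂ)) ≠ 2 := fun h => by
      have h3 := (Cfsg.Agent.S4607.result r M hM _ hB D hD).1 h
      obtain ⟨k, hk⟩ := (H33.defect_isPGroup hD).exists_card_eq
      rw [h3] at hk
      have : 2 ∣ r := Nat.prime_two.dvd_of_dvd_pow (n := k) (by rw [← hk])
      exact h2 ((Nat.prime_dvd_prime_iff_eq Nat.prime_two hr).1 this).symm
    have h1 : (blockOf M (χ : G → ℂ)).ncard ≤ 1 := by
      have : Nat.card (blockOf M (χ : G → ℂ)) = (blockOf M (χ : G → ℂ)).ncard := rfl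
      omega
    rw [← H33.blockOf_eq_singleton_iff hM]
    exact ((Set.ncard_le_one_iff_subsingleton).1 h1).eq_singleton_of_mem (H84.mem_blockOf_self χ)
  set a := (Nat.card G).factorization r with ha
  have hdvd : r ^ (2 * a) ∣ N.index * charDegree (θ : N → ℂ) ^ 2 := by
    rw [← sum_sq_upSet_singleton hθ]
    refine Finset.dvd_sum fun χ hχ => ?_
    rw [mul_comm, pow_mul]
    refine pow_dvd_pow_of_dvd ?_ 2
    rw [← hdeg χ (H84.mem_bset.1 hχ)]
    exact Nat.ordProj_dvd _ _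
  have hc : Nat.Coprime (r ^ (2 * a)) (charDegree (θ : N → ℂ) ^ 2) :=
    Nat.Coprime.pow _ _ ((hr.coprime_iff_not_dvd).2 fun h => hN (h.trans (H84.deg_dvd_card θ)))
  have h3 := (hc.dvd_of_dvd_mul_right hdvd).trans N.index_dvd_card
  have h4 := (hr.pow_dvd_iff_le_factorization Nat.card_pos.ne').1 h3
  have h5 := (hr.dvd_iff_one_le_factorization Nat.card_pos.ne').1 (hi.trans N.index_dvd_card)
  omega

/-- There are three irreducible characters whose restrictions are multiples of `θ`. -/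
def Three (N : Subgroup G) (θ : N → ℂ) : Prop :=
  ∃ f : Fin 3 → G → ℂ, Function.Injective f ∧
    ∀ i, IsIrrCharacter G (f i) ∧ ∃ e : ℂ, ∀ n : N, f i n = e * θ n

theorem auto_lemmas_K3Trip : True := by have := @Three.eq_1.{0}; trivial

theorem over_of_eq_mul {N : Subgroup G} [Fintype N] {θ : N → ℂ} (hθ : IsIrrCharacter N θ)
    {χ : G → ℂ} (hχ : IsIrrCharacter G χ) {e : ℂ} (he : ∀ n : N, χ n = e * θ n) : Over χ θ := by
  unfold Over
  rw [H31.inner_res_of_eq_mul N hθ he]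
  rintro rfl
  exact H6.irr_one_ne_zero hχ (by simpa using he 1)

theorem three_iff {N : Subgroup G} [N.Normal] [Fintype N] {θ : IrrCharacter N}
    (hθ : ∀ g : G, cjI g θ = θ) : Three N (θ : N → ℂ) ↔ 3 ≤ Nat.card (upSet G {θ}) := by
  constructor
  · rintro ⟨f, hf, h⟩
    let F : Fin 3 → upSet G {θ} := fun i => ⟨⟨f i, (h i).1⟩, H34.mem_upSet_singleton.2 (by
      obtain ⟨e, he⟩ := (h i).2
      exact over_of_eq_mul θ.2 (h i).1 he)⟩
    have hF : Function.Injective F := fun i j hij =>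
      hf (congrArg (fun x : upSet G {θ} => (x.1 : G → ℂ)) hij)
    simpa using Nat.card_le_card_of_injective F hF
  · intro h
    letI := Fintype.ofFinite (upSet G {θ})
    obtain ⟨F⟩ : Nonempty (Fin 3 ↪ upSet G {θ}) :=
      Function.Embedding.nonempty_of_card_le (by simpa [Nat.card_eq_fintype_card] using h)
    refine ⟨fun i => ((F i).1 : G → ℂ), fun i j hij => F.injective (Subtype.ext (Subtype.ext hij)),
      fun i => ⟨(F i).1.2, _, res_eq_smul_of_invariant _ hθ (H34.mem_upSet_singleton.1 (F i).2)⟩⟩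

omit [Finite G] in
theorem conj_mem_ker {K : Subgroup G} [hK : K.Normal] (ν : K →* ℂˣ)
    (hinv : ∀ (g : G) (n : K), ν ⟨g * n * g⁻¹, hK.conj_mem (n : G) n.2 g⟩ = ν n) (g : G) (x : K) :
    (g * x)⁻¹ * (x * g) ∈ ν.ker.map K.subtype := by
  refine ⟨x⁻¹ * ⟨g⁻¹ * x * g⁻¹⁻¹, hK.conj_mem (x : G) x.2 g⁻¹⟩, ?_, by simp [mul_assoc]⟩
  show ν _ = 1
  rw [map_mul, hinv, map_inv, inv_mul_cancel]

/-- The linear case with a character of order prime to `r`. -/
theorem three_of_hom {K : Subgroup G} [hK : K.Normal] (ν : K →* ℂˣ)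
    (hinv : ∀ (g : G) (n : K), ν ⟨g * n * g⁻¹, hK.conj_mem (n : G) n.2 g⟩ = ν n) {r k : ℕ}
    (hr : r.Prime) (h2 : r ≠ 2) (hk : ¬ r ∣ k) (hν : ∀ x, ν x ^ k = 1) (hi : r ∣ K.index) :
    Three K (fun x => (ν x : ℂ)) := by
  haveI := H31.normal_ker_map ν hinv
  set Z := ν.ker.map K.subtype with hZ
  let π := QuotientGroup.mk' Z
  have hπ : Function.Surjective π := QuotientGroup.mk'_surjective Z
  haveI : (K.map π).Normal := hK.map π hπ
  letI := Fintype.ofFinite (K.map π)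
  have hker : ∀ x : K, π x = 1 → ν x = 1 := by
    intro x hx
    obtain ⟨y, hy, hxy⟩ := (QuotientGroup.eq_one_iff (x : G)).1 hx
    rwa [← (Subtype.ext hxy : y = x)]
  obtain ⟨θ, hθ, hθπ⟩ := H31.exists_irr_descend (π.subgroupMap K) (π.subgroupMap_surjective K)
    (H6.isIrrCharacter_hom ν) fun z hz => by
      rw [hker z (congrArg Subtype.val hz), map_one]
  have hcen : ∀ (g : G ⧸ Z) (n : K.map π), g * n * g⁻¹ = n := by
    rintro g ⟨_, x, hx, rfl⟩
    obtain ⟨g, rfl⟩ := hπ g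
    rw [mul_inv_eq_iff_eq_mul, ← map_mul, ← map_mul]
    exact QuotientGroup.eq.2 (conj_mem_ker ν hinv g ⟨x, hx⟩)
  have hθi : ∀ g : G ⧸ Z, cjI g (⟨θ, hθ⟩ : IrrCharacter (K.map π)) = ⟨θ, hθ⟩ := fun g =>
    Subtype.ext (funext fun n => congrArg θ (Subtype.ext (hcen g n)))
  have hN : ¬ r ∣ Nat.card (K.map π) := by
    intro hd
    haveI := Fact.mk hr
    obtain ⟨⟨_, x, hx, rfl⟩, ho⟩ := exists_prime_orderOf_dvd_card' r hd
    refine hk (ho ▸ orderOf_dvd_of_pow_eq_one (Subtype.ext ?_))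
    show π x ^ k = 1
    rw [← map_pow]
    exact (QuotientGroup.eq_one_iff _).2 ⟨⟨x, hx⟩ ^ k, by
      show ν _ = 1
      rw [map_pow, hν], rfl⟩
  have hidx : (K.map π).index = K.index := by
    refine K.index_map_eq hπ ?_
    rw [QuotientGroup.ker_mk']
    exact map_subtype_le _
  obtain ⟨f, hf, h⟩ := (three_iff hθi).2 (three_le_of_not_dvd hθi hr h2 hN (hidx ▸ hi))
  refine ⟨fun i g => f i (π g), fun i j hij => hf (funext fun q => ?_), fun i =>
    ⟨H6.isIrrCharacter_comp_surjective π hπ (h i).1, ?_⟩⟩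
  · obtain ⟨g, rfl⟩ := hπ q
    exact congrFun hij g
  · obtain ⟨e, he⟩ := (h i).2
    exact ⟨e, fun n => (he (π.subgroupMap K n)).trans (congrArg _ (hθπ n))⟩

/-- The linear case where a power of exponent prime to `r` extends. -/
theorem three_of_extPow {K : Subgroup G} [hK : K.Normal] (ν : K →* ℂˣ)
    (hinv : ∀ (g : G) (n : K), ν ⟨g * n * g⁻¹, hK.conj_mem (n : G) n.2 g⟩ = ν n) {r m : ℕ}
    (hr : r.Prime) (h2 : r ≠ 2) (hm : ¬ r ∣ m) (hν : H31.ExtPow K ν m) (hi : r ∣ K.index) :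
    Three K (fun x => (ν x : ℂ)) := by
  obtain ⟨F, hF⟩ := hν
  obtain ⟨a, k, hk, hak⟩ := Nat.exists_eq_pow_mul_and_not_dvd (Nat.card_pos (α := K)).ne' r
    hr.ne_one
  have hc : Nat.Coprime m (r ^ (a + 1)) := ((hr.coprime_iff_not_dvd.2 hm).symm).pow_right _
  obtain ⟨j, -, hj⟩ := Nat.exists_mul_mod_eq_one_of_coprime hc
    (Nat.one_lt_pow (by omega) hr.one_lt)
  have hj1 : m * j = r ^ (a + 1) * (m * j / r ^ (a + 1)) + 1 := by
    have := Nat.div_add_mod (m * j) (r ^ (a + 1))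
    omega
  let ν' : K →* ℂˣ := ν * ((F ^ j).comp K.subtype)⁻¹
  have hν' : ∀ x : K, ν' x = ν x * (F x ^ j)⁻¹ := fun _ => rfl
  obtain ⟨f, hf, h⟩ := three_of_hom ν' (fun g n => by
      rw [hν', hν', hinv]
      simp [mul_comm]) hr h2 hk (fun x => by
      have h1 : ν x ^ (r ^ a * k) = 1 := by rw [← hak, ← map_pow, pow_card_eq_one', map_one]
      rw [hν', hF, ← pow_mul, hj1, pow_succ (ν x), mul_inv, mul_comm (ν x), mul_assoc,
        inv_mul_cancel, mul_one, inv_pow, ← pow_mul, inv_eq_one,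
        show r ^ (a + 1) * (m * j / r ^ (a + 1)) * k =
          r ^ a * k * (r * (m * j / r ^ (a + 1))) by ring, pow_mul, h1, one_pow]) hi
  refine ⟨fun i g => f i g * ((F ^ j) g : ℂ), fun i i' hii => hf (funext fun g => ?_), fun i =>
    ⟨H6.isIrrCharacter_mul_hom (h i).1 _, ?_⟩⟩
  · exact mul_right_cancel₀ (Units.ne_zero _) (congrFun hii g)
  · obtain ⟨e, he⟩ := (h i).2
    refine ⟨e, fun n => ?_⟩
    have h0 := (F n).ne_zero
    simp only [he, hν', MonoidHom.pow_apply, Units.val_mul, Units.val_inv_eq_inv_val,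
      Units.val_pow_eq_pow_val]
    field_simp

theorem three_of_centralExt {Γ : Type*} [Group Γ] [Finite Γ] {N : Subgroup G} [hN : N.Normal]
    {ϑ : N → ℂ} {π : Γ →* G} {τ : Γ → ℂ} {ν : N.comap π →* ℂˣ}
    (h : H31.IsCentralExt N ϑ π τ ν) (hϑ : IsIrrCharacter N ϑ)
    (h3 : Three (N.comap π) (fun x => (ν x : ℂ))) : Three N ϑ := by
  haveI : Fintype Γ := Fintype.ofFinite _
  haveI : Fintype (N.comap π) := Fintype.ofFinite _
  have h1 : IsIrrCharacter (N.comap π) (fun x => (ν x : ℂ)) := H6.isIrrCharacter_hom ν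
  have h0 : ((fun x : N.comap π => (ν x : ℂ)) * fun x : N.comap π => τ x) =
      fun x : N.comap π => ϑ ⟨π x, x.2⟩ := by
    ext x
    rw [← h.eq, mul_comm]
    rfl
  have h2 : IsIrrCharacter (N.comap π)
      ((fun x : N.comap π => (ν x : ℂ)) * fun x : N.comap π => τ x) := by
    rw [h0]; exact h.isIrr_comp hϑ
  have hb := H31.gallagher_bijOn (N.comap π) h1 (fun g n => congrArg Units.val (h.inv g n)) h2
    (H6.irr_isCharacter h.irr) (fun _ => rfl)
  obtain ⟨f, hf, hfi⟩ := h3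
  have hmem : ∀ i, f i ∈ {β : Γ → ℂ | IsIrrCharacter Γ β ∧
      classInner (indFun (N.comap π) fun x => (ν x : ℂ)) β ≠ 0} := fun i => by
    obtain ⟨e, he⟩ := (hfi i).2
    exact ⟨(hfi i).1, (H31.inner_indFun_ne_zero_iff _ _ (H6.irr_isClassFunction (hfi i).1)).2
      (over_of_eq_mul h1 (hfi i).1 he)⟩
  have hres : ∀ i, ∃ e : ℂ, ∀ x : N.comap π, (f i * τ) x = e * ϑ ⟨π x, x.2⟩ := fun i => by
    obtain ⟨e, he⟩ := (hfi i).2
    exact ⟨e, fun x => by rw [Pi.mul_apply, he, ← h.eq]; ring⟩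
  have hex : ∀ i, ∃ χ : G → ℂ, IsIrrCharacter G χ ∧ ∀ y, χ (π y) = (f i * τ) y := fun i =>
    H31.exists_irr_descend π h.surj (hb.mapsTo (hmem i)).1 fun z hz => by
      obtain ⟨e, he⟩ := hres i
      have hz' : z ∈ N.comap π := by rw [Subgroup.mem_comap, hz]; exact N.one_mem
      refine (he ⟨z, hz'⟩).trans (Eq.trans ?_ (he 1).symm)
      congr 2
      exact Subtype.ext (hz.trans (map_one π).symm)
  choose χ hχ hχπ using hex
  refine ⟨χ, fun i j hij => hf (hb.injOn (hmem i) (hmem j) (funext fun y => ?_)), fun i =>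
    ⟨hχ i, ?_⟩⟩
  · exact (hχπ i y).symm.trans ((congrFun hij _).trans (hχπ j y))
  · obtain ⟨e, he⟩ := hres i
    refine ⟨e, fun n => ?_⟩
    obtain ⟨x, rfl⟩ := h.surjective_res N n
    exact (hχπ i x).trans (he x)

/-- An odd prime with a cyclic Sylow subgroup in the quotient forces three characters. -/
theorem three_le_of_cyclic {N : Subgroup G} [hN : N.Normal] [Fintype N] {θ : IrrCharacter N}
    (hθ : ∀ g : G, cjI g θ = θ) {r : ℕ} (hr : r.Prime) (h2 : r ≠ 2) (hi : r ∣ N.index)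
    (P : Subgroup (G ⧸ N)) (hP : ¬ r ∣ P.index) (hc : IsCyclic P) :
    3 ≤ Nat.card (upSet G {θ}) := by
  have hinv : ∀ (g : G) (n : N),
      (θ : N → ℂ) ⟨g * n * g⁻¹, hN.conj_mem (n : G) n.2 g⟩ = (θ : N → ℂ) n := fun g n =>
    congrFun (congrArg Subtype.val (hθ g)) n
  obtain ⟨Γ, _, _, π, τ, ν, h⟩ := H31.exists_centralExt N θ.2 hinv
  let ρ : Γ →* G ⧸ N := (QuotientGroup.mk' N).comp π
  have hρ : Function.Surjective ρ := (QuotientGroup.mk'_surjective N).comp h.surj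
  have hle : N.comap π ≤ P.comap ρ := fun x hx => by
    show ρ x ∈ P
    rw [show ρ x = 1 from (QuotientGroup.eq_one_iff _).2 hx]
    exact P.one_mem
  let K' := (N.comap π).subgroupOf (P.comap ρ)
  let e : K' ≃* N.comap π := Subgroup.subgroupOfEquivOfLe hle
  have hcyc : IsCyclic (P.comap ρ ⧸ K') := by
    refine isCyclic_of_injective (QuotientGroup.lift K' (ρ.subgroupComap P) fun x hx =>
      Subtype.ext ((QuotientGroup.eq_one_iff _).2 hx)) ?_
    rw [injective_iff_map_eq_one]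
    intro q hq
    induction q using QuotientGroup.induction_on with
    | H y =>
      rw [QuotientGroup.eq_one_iff]
      exact (QuotientGroup.eq_one_iff (π y)).1 (congrArg Subtype.val hq)
  obtain ⟨μ, hμ⟩ := H31.exists_hom_ext_of_isCyclic hcyc (ν.comp e.toMonoidHom)
    fun g n => h.inv g (e n)
  have hE := H31.extPow_index hle ν h.inv μ fun n => hμ (e.symm n)
  rw [P.index_comap_of_surjective hρ] at hE
  exact (three_iff hθ).1 (three_of_centralExt h θ.2
    (three_of_extPow ν h.inv hr h2 hP hE (h.index_comap ▸ hi)))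

/-- Extension over a quotient with trivial multiplier. -/
theorem extends_of_mult_one {N : Subgroup G} [hN : N.Normal] {Q : Type*} [Group Q] [Finite Q]
    (hQ : HasCyclicSchurMultiplier Q 1) (e : G ⧸ N ≃* Q) {ϑ : N → ℂ} (hϑ : IsIrrCharacter N ϑ)
    (hinv : ∀ (g : G) (n : N), ϑ ⟨g * n * g⁻¹, hN.conj_mem (n : G) n.2 g⟩ = ϑ n) :
    ∃ χ : G → ℂ, IsIrrCharacter G χ ∧ ∀ n : N, χ n = ϑ n := by
  obtain ⟨Γ, _, _, π, τ, ν, h⟩ := H31.exists_centralExt N hϑ hinv
  haveI := H31.normal_ker_map ν h.inv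
  set Z := ν.ker.map (N.comap π).subtype with hZ
  let ρ : Γ →* Q := e.toMonoidHom.comp ((QuotientGroup.mk' N).comp π)
  have hρ : Function.Surjective ρ :=
    e.surjective.comp ((QuotientGroup.mk'_surjective N).comp h.surj)
  have hρ1 : ∀ x, ρ x = 1 ↔ x ∈ N.comap π := fun x =>
    (EmbeddingLike.map_eq_one_iff (f := e)).trans (QuotientGroup.eq_one_iff _)
  let ξ : Γ ⧸ Z →* Q := QuotientGroup.lift Z ρ fun x hx => (hρ1 x).2 (map_subtype_le _ hx)
  have hb := H78.Schur.ker_inf_eq_bot hQ ξ (fun q => by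
    obtain ⟨x, rfl⟩ := hρ q
    exact ⟨x, rfl⟩) (fun q hq => by
    induction q using QuotientGroup.induction_on with
    | H x =>
      rw [mem_center_iff]
      intro g
      induction g using QuotientGroup.induction_on with
      | H g => exact QuotientGroup.eq.2 (conj_mem_ker ν h.inv g ⟨x, (hρ1 x).1 hq⟩))
  obtain ⟨μ, hμ⟩ := H31.exists_hom_ext_of_commutator _ ν fun x hx => by
    have h1 : ((x : Γ) : Γ ⧸ Z) ∈ ξ.ker ⊓ commutator (Γ ⧸ Z) := ⟨(hρ1 x).2 x.2, by
      have := Subgroup.mem_map_of_mem (QuotientGroup.mk' Z) hx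
      rw [commutator_def, Subgroup.map_commutator] at this
      exact commutator_mono le_top le_top this⟩
    rw [hb, mem_bot, QuotientGroup.eq_one_iff] at h1
    obtain ⟨y, hy, hxy⟩ := h1
    rwa [← (Subtype.ext hxy : y = x)]
  exact h.extends_of_hom μ hμ

/-- Over a cyclic or quaternion quotient an invariant character extends. -/
theorem exists_ext {N : Subgroup G} [hN : N.Normal] [Fintype N] {θ : IrrCharacter N}
    (hθ : ∀ g : G, cjI g θ = θ)
    (hq : IsCyclic (G ⧸ N) ∨ ∃ n : ℕ, Nonempty (G ⧸ N ≃* QuaternionGroup (2 ^ (n + 1)))) :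
    ∃ χ ∈ upSet G {θ}, charDegree (χ : G → ℂ) = charDegree (θ : N → ℂ) := by
  have hinv : ∀ (g : G) (n : N),
      (θ : N → ℂ) ⟨g * n * g⁻¹, hN.conj_mem (n : G) n.2 g⟩ = (θ : N → ℂ) n := fun g n =>
    congrFun (congrArg Subtype.val (hθ g)) n
  obtain ⟨χ, hχ, h⟩ : ∃ χ : G → ℂ, IsIrrCharacter G χ ∧ ∀ n : N, χ n = (θ : N → ℂ) n := by
    rcases hq with hq | ⟨n, ⟨e⟩⟩
    · exact H31.extends_of_isCyclic N hq θ.2 hinv
    · exact extends_of_mult_one (Cfsg.Agent.S3963.result (2 ^ (n + 1))) e θ.2 hinv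
  refine ⟨⟨χ, hχ⟩, H34.mem_upSet_singleton.2
    (over_of_eq_mul θ.2 hχ (e := 1) fun n => (h n).trans (one_mul _).symm), ?_⟩
  apply Nat.cast_injective (R := ℂ)
  rw [H84.cast_deg, H84.cast_deg]
  exact h 1

end H35K
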