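import Mathlib
import Cfsg.Agent.Base
import Cfsg.Agent.Lib.K3.Grp
import Cfsg.Agent.Lib.K3.Trip
import Cfsg.Agent.Lib.Block.QuotRank
import Cfsg.Agent.Lib.Block.FongRank
import Cfsg.Agent.Lib.Block.Inert
import Cfsg.Agent.Lib.Core.CoprimeBasic
import Cfsg.Agent.Lib.Char.Chief

/-!
Blocks with three characters and a normal abelian defect group (helper35).
-/

set_option autoImplicit false
set_option linter.style.haveILetI false

namespace H35K

open Cfsg H35 H84 Subgroup
open H86 (Cen Nor quotSet)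

universe u

variable {p : ℕ} [hp : Fact p.Prime] {M : Ideal AlgInt} [M.IsMaximal]

section rank

variable {G : Type*} [Group G] [Fintype G] {Z : Subgroup G} [Z.Normal]

theorem exists_conj_of_mk_eq (hZ : IsPGroup p Z) {a b : G} (ha : ¬ p ∣ orderOf a)
    (hb : ¬ p ∣ orderOf b) (e : (a : G ⧸ Z) = b) : ∃ k, k * a * k⁻¹ = b := by
  obtain ⟨m, hm⟩ := hZ.exists_card_eq
  obtain ⟨k, hk, h⟩ := H2.exists_conj_le_of_forall_mul_mem (A := zpowers a) (K := Z)
    le_normalizer_of_normal (by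
      rw [Nat.card_zpowers, hm]
      exact ((hp.out.coprime_iff_not_dvd.2 ha).symm).pow_right _)
    (Or.inl (H2.isSolvable_zpowers a)) (H := zpowers b) (by
      rintro _ ⟨n, rfl⟩
      refine ⟨b ^ n * (a ^ n)⁻¹, ?_, by simp⟩
      rw [← QuotientGroup.eq_one_iff]
      simp [e])
  have h1 := mul_mem (h a (mem_zpowers a)) (inv_mem (mem_zpowers b))
  have h2 : k * a * k⁻¹ * b⁻¹ ∈ Z := by
    rw [← QuotientGroup.eq_one_iff] at hk ⊢
    simp [hk, e]
  refine ⟨k, mul_inv_eq_one.1 (orderOf_eq_one_iff.1 ?_)⟩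
  refine Nat.eq_one_of_dvd_coprimes (((hp.out.coprime_iff_not_dvd.2 hb).symm).pow_right m)
    (orderOf_dvd_of_mem_zpowers h1) ?_
  rw [← hm]
  exact Z.orderOf_dvd_natCard h2

theorem desc_mk' (hZ : IsPGroup p Z) {θ : G → ℂ} (hθ : IsClassFunction G θ) (g : G) :
    desc p Z θ g = θ (pReg p g) := by
  obtain ⟨k, hk⟩ := exists_conj_of_mk_eq hZ (not_dvd_orderOf_pReg p g)
    (not_dvd_orderOf_pReg p (g : G ⧸ Z).out) (by
      have h1 := pReg_map p (QuotientGroup.mk' Z) g
      have h2 := pReg_map p (QuotientGroup.mk' Z) (g : G ⧸ Z).out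
      simp only [QuotientGroup.mk'_apply] at h1 h2
      rw [← h1, ← h2, QuotientGroup.out_eq'])
  rw [desc, ← hk, hθ]

/-- The rank of a block is at most the number of its characters that are trivial on a normal
`p`-subgroup. -/
theorem rank_le_card (hM : IsPModular p M) {B : Set (IrrCharacter G)} (hB : IsPBlock M B)
    (hZ : IsPGroup p Z) {X : Set (IrrCharacter G)}
    (hX : ∀ χ ∈ B, (∀ z ∈ Z, (χ : G → ℂ) z = (χ : G → ℂ) 1) → χ ∈ X) :
    blockRank p B ≤ Nat.card X := by
  classical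
  letI := Fintype.ofFinite (G ⧸ Z)
  refine le_trans ?_ (blockRank_le_card (p := p) X)
  rw [blockRank_eq_finrank, blockRank_eq_finrank]
  refine Submodule.finrank_mono ?_
  rw [regSpan, Submodule.span_le]
  rintro _ ⟨χ, hχ, rfl⟩
  have h1 : rinf p Z (desc p Z (χ : G → ℂ)) = pRegularPart p (χ : G → ℂ) :=
    reg_ext fun g hg => (desc_mk' hZ (irr_class χ) g).trans (by rw [pReg_eq_self hg])
  have h2 : IsClassFunction (G ⧸ Z) (desc p Z (χ : G → ℂ)) := by
    intro a b
    obtain ⟨a, rfl⟩ := QuotientGroup.mk_surjective a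
    obtain ⟨b, rfl⟩ := QuotientGroup.mk_surjective b
    rw [← QuotientGroup.mk_inv, ← QuotientGroup.mk_mul, ← QuotientGroup.mk_mul,
      desc_mk' hZ (irr_class χ), desc_mk' hZ (irr_class χ), pReg_conj, irr_class χ]
  show pRegularPart p (χ : G → ℂ) ∈ regSpan p X
  rw [← blockPart_reg_of_mem hM hB hχ, ← h1, ← rinf_blockPart hM hB h2, blockPart_eq, map_sum]
  refine Submodule.sum_mem _ fun ψ hψ => ?_
  rw [map_smul, rinf_irr]
  exact Submodule.smul_mem _ _ (reg_mem_regSpan
    (hX _ (H86.mem_quotSet.1 (mem_bset.1 hψ)) fun z hz => infl_of_mem ψ hz))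

end rank

theorem card_irr_comm {A : Type*} [Group A] [Finite A] (hc : ∀ a b : A, a * b = b * a) :
    Nat.card (IrrCharacter A) = Nat.card A := by
  have h := H6.sum_irr_one_sq (G := A)
  simp only [fun χ : IrrCharacter A => H6.irr_one_eq_one_of_comm hc χ.2] at h
  simpa [Nat.card_eq_fintype_card] using h

/-- The case of an invariant block of the centraliser. -/
theorem card_eq_three_inv (hM : IsPModular p M) {H : Type*} [Group H] [Finite H] {V : Subgroup H}
    [hVn : V.Normal] (hVc : ∀ a ∈ V, ∀ b ∈ V, a * b = b * a) {c : Set (IrrCharacter H)}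
    (hc : IsPBlock M c) (hD : IsDefectGroup p M c V) (hk : Nat.card c = 3) [Fintype (Cen V)]
    {b : Set (IrrCharacter (Cen V))} (hb : IsPBlock M b) (hcov : Covers c b)
    (hinv : ∀ g : H, ∀ θ ∈ b, cjI g θ ∈ b) : Nat.card V = 3 := by
  classical
  haveI := H33.charP hM
  letI := Fintype.ofFinite H
  have hVp := H33.defect_isPGroup hD
  have hV1 : V ≠ ⊥ := fun h1 => by
    obtain ⟨χ, hχ⟩ := block_nonempty hc
    rw [(H33.blockDefect_eq_zero_iff_singleton hM hc hχ).1
      ((H33.blockDefect_eq_zero_iff_bot hM hc hD).2 h1)] at hk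
    simp at hk
  obtain ⟨e, hmp⟩ := H85.exists_mp hM hc hD
  have hl := blockRank_pos (p := p) (block_nonempty hc)
  have hl3 := H35C.rank_lt_card hmp hV1
  by_cases hl1 : blockRank p c = 1
  · have h3 := H35C.rank_one_small hM hc hl1 (by omega)
    rw [H33.defect_card hM hc hD]
    omega
  have hVC : V ≤ Cen V := fun a ha => H86.mem_Cen.2 fun q hq => hVc q hq a ha
  have hind := hcov.isInducedBlock hM hVp le_rfl hc hb
  have hbP := isDefectGroup_of_isInducedBlock hM hVC le_rfl (H86.Cen_le_Nor V) hind hD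
  set P := V.subgroupOf (Cen V) with hP
  have hG : P ⊔ Cen P = ⊤ := eq_top_iff.2 fun x _ => mem_sup_right
    (H86.mem_Cen.2 fun q hq => Subtype.ext (H86.mem_Cen.1 x.2 q hq))
  have hP' : IsPGroup p P := H86.isPGroup_subgroupOf hVp
  have hPc : ∀ x y : P, x * y = y * x := fun x y => Subtype.ext (Subtype.ext (hVc _ x.2 _ y.2))
  have hPV : Nat.card P = Nat.card V := Nat.card_congr (subgroupOfEquivOfLe hVC).toEquiv
  obtain ⟨θ, hθ, hker, hbase⟩ := exists_canonical hM hG hb hbP
  have hb' := block_eq_blockOf hb hθ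
  have hθi : ∀ g : H, cjI g θ = θ := fun g =>
    canonical_unique hM hG hb hbP (hinv g θ hθ) hθ (fun u hu => by
      rw [coe_cjI, cj_apply_one]
      exact hker _ (hVn.conj_mem _ hu g)) hker
  have hcb : c = upSet H b := by
    refine Set.Subset.antisymm (hcov.subset hc hb) fun χ hχ => ?_
    obtain ⟨ψ, hψ, ho⟩ := hχ
    rw [hcov.unique_of_centralizer_le hM hVp le_rfl hc (isPBlock_blockOf χ) hb
      ⟨χ, mem_blockOf_self χ, ψ, hψ, ho⟩]
    exact mem_blockOf_self χ
  set t := charDegree (θ : Cen V → ℂ) with ht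
  have hsb : ∑ ψ ∈ bset b, charDegree (ψ : Cen V → ℂ) ^ 2 = Nat.card V * t ^ 2 := by
    rw [Finset.sum_congr rfl (g := fun _ => t ^ 2), Finset.sum_const, card_bset,
      card_block_of_defect hM hG hb hbP, card_irr_comm hPc, hPV, smul_eq_mul]
    intro ψ hψ
    have h1 := mem_bset.1 hψ
    rw [hb', hbase.blockOf_eq_range hM hP' hG] at h1
    obtain ⟨ξ, rfl⟩ := h1
    have h2 : charDegree (ξ : P → ℂ) = 1 := by
      apply Nat.cast_injective (R := ℂ)
      rw [cast_deg, H6.irr_one_eq_one_of_comm hPc ξ.2, Nat.cast_one]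
    rw [hbase.charDegree_canonI, h2, one_mul]
  have hsc := sum_sq_upSet hinv
  rw [← hcb, hsb] at hsc
  have hsX := sum_sq_upSet_singleton hθi
  set X := upSet H {θ} with hXdef
  have hXc : X ⊆ c := by
    rw [hcb]
    rintro χ ⟨ψ, hψ, ho⟩
    exact ⟨ψ, by rw [Set.mem_singleton_iff.1 hψ]; exact hθ, ho⟩
  have hV2 : 1 < Nat.card V := (one_lt_card_iff_ne_bot V).2 hV1
  have hi0 : 0 < (Cen V).index := Nat.pos_of_ne_zero index_ne_zero_of_finite
  have ht0 : 0 < t := deg_pos θ
  have hXne : X ≠ c := fun h => by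
    rw [h, hsc] at hsX
    have h1 := Nat.eq_of_mul_eq_mul_left hi0 hsX
    have h2 : 0 < t ^ 2 := by positivity
    nlinarith
  have hX2 : 2 ≤ Nat.card X := by
    refine le_trans (by omega) (rank_le_card hM hc hVp fun χ hχ hz => ?_)
    obtain ⟨ψ, hψ, ho⟩ := hcov.subset hc hb hχ
    refine ⟨ψ, canonical_unique hM hG hb hbP hψ hθ (fun u hu => ?_) hker, ho⟩
    simpa using H31.scalar_of_constituent (H6.isCharacter_restrict (Cen V) (H6.irr_isCharacter χ.2))
      ψ.2 ho (z := u) (c := 1) norm_one (by simpa using hz u hu)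
  have hX3 : Nat.card X < 3 := by
    rw [← hk]
    exact Set.ncard_lt_ncard (hXc.ssubset_of_ne hXne) (Set.toFinite _)
  obtain ⟨χ₁, χ₂, h12, hX⟩ := Set.ncard_eq_two.1 (show X.ncard = 2 from
    (show Nat.card X = 2 by omega))
  obtain ⟨χ₃, h3c, h3X⟩ := Set.exists_of_ssubset (hXc.ssubset_of_ne hXne)
  have hbX : bset X = {χ₁, χ₂} := by
    ext χ; simp [mem_bset, hX]
  have hbc : bset c = insert χ₃ (bset X) := by
    symm
    refine Finset.eq_of_subset_of_card_le (fun χ hχ => ?_) ?_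
    · rcases Finset.mem_insert.1 hχ with rfl | h
      · exact mem_bset.2 h3c
      · exact mem_bset.2 (hXc (mem_bset.1 h))
    · rw [Finset.card_insert_of_notMem (fun h => h3X (mem_bset.1 h)), card_bset, card_bset]
      omega
  rw [hbc, Finset.sum_insert (fun h => h3X (mem_bset.1 h)), hsX] at hsc
  rw [hbX, Finset.sum_pair h12] at hsX
  haveI : Nontrivial V := (nontrivial_iff_ne_bot V).2 hV1
  have hker' : ∀ x : H, MulAut.conjNormal (H := V) x = 1 ↔ x ∈ Cen V := fun x => by
    rw [H86.mem_Cen_iff_conj, MulEquiv.ext_iff]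
    exact ⟨fun h q hq => congrArg Subtype.val (h ⟨q, hq⟩), fun h q => Subtype.ext (h q q.2)⟩
  let φ : H ⧸ Cen V →* MulAut V :=
    QuotientGroup.lift (Cen V) MulAut.conjNormal fun x hx => (hker' x).2 hx
  refine card_eq_three hVp φ ?_ ?_ (d1 := charDegree (χ₁ : H → ℂ)) (d2 := charDegree (χ₂ : H → ℂ))
    (d3 := charDegree (χ₃ : H → ℂ)) ht0 (deg_pos _) (deg_pos _) hsX ?_ ?_ ?_
  · rw [injective_iff_map_eq_one]
    intro q hq
    induction q using QuotientGroup.induction_on with
    | H y => exact (QuotientGroup.eq_one_iff y).2 ((hker' y).1 hq)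
  · intro u v hu hv
    obtain ⟨g, hg⟩ := isConj_iff.1 (H34.isConj_of_card_eq_rank_add_one hM hc hD (by omega) u.2 v.2
      (fun h => hu (Subtype.ext h)) (fun h => hv (Subtype.ext h)))
    exact ⟨g, Subtype.ext hg⟩
  · obtain ⟨w, hw⟩ : ∃ w, Nat.card V = w + 1 := ⟨Nat.card V - 1, by omega⟩
    rw [hw] at hsc ⊢
    show _ = (w + 1 - 1) * (Cen V).index * t ^ 2
    rw [Nat.add_sub_cancel]
    nlinarith
  · intro r hr h2 hd Q hQ hcyc
    exact absurd (three_le_of_cyclic hθi hr h2 hd Q hQ hcyc) (not_le.2 hX3)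
  · intro hq
    obtain ⟨χ, hχ, hd⟩ := exists_ext hθi hq
    rw [← hXdef, hX] at hχ
    rcases hχ with rfl | rfl
    · exact Or.inl hd
    · exact Or.inr hd

/-- A block with three characters and a normal abelian defect group. -/
theorem card_eq_three_normal (hM : IsPModular p M) (n : ℕ) :
    ∀ {H : Type u} [Group H] [Finite H] {V : Subgroup H} [V.Normal], Nat.card H = n →
      (∀ a ∈ V, ∀ b ∈ V, a * b = b * a) → ∀ {c : Set (IrrCharacter H)}, IsPBlock M c →
      IsDefectGroup p M c V → Nat.card c = 3 → Nat.card V = 3 := by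
  induction n using Nat.strong_induction_on with
  | _ n ih =>
  intro H _ _ V _ hn hVc c hc hD hk
  letI := Fintype.ofFinite H
  letI := Fintype.ofFinite (Cen V)
  obtain ⟨b, hb, hcov⟩ := exists_covered (Cen V) hc
  have hst := isStab_blkStab (G := H) hb
  by_cases hT : blkStab H b = ⊤
  · exact card_eq_three_inv hM hVc hc hD hk hb hcov fun g => (hst.mem g).1 (hT ▸ mem_top g)
  obtain ⟨B', hB', hc', hind⟩ := hst.block_surj hc hcov
  have hR : H34.IndRed M (blkStab H b) B' c := ⟨hB', hind, hst.eq_indSet hM hc' hind,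
    fun ψ hψ => hst.isIrr_of_mem hB' hc' hψ,
    fun ψ hψ ψ' hψ' e => hst.inj_of_mem hB' hc' hB' hc' hψ hψ' e⟩
  have hVT : V ≤ blkStab H b :=
    le_trans (fun a ha => H86.mem_Cen.2 fun q hq => hVc q hq a ha) hst.le
  have hD' := isDefectGroup_of_isInducedBlock hM hVT hst.le
    (by rw [Nor, normalizer_eq_top]; exact le_top) hind hD
  rw [← Nat.card_congr (subgroupOfEquivOfLe hVT).toEquiv]
  refine ih _ ?_ rfl (fun x hx y hy => Subtype.ext (hVc _ hx _ hy)) hB' hD' (hR.card ▸ hk)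
  rw [← hn]
  exact lt_of_le_of_ne (card_le_card_group _) fun h => hT ((card_eq_iff_eq_top _).1 h)

end H35K
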